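import Mathlib
import Cfsg.Agent.Lib.Vanish.Fix
import Cfsg.Agent.Lib.Vanish.Shift
import Cfsg.Agent.Lib.PGroups.Basic

/-!
# Two-elements moving vectors

For a `2`-group normal in a group acting faithfully on a module of odd order: an abelian normal
subgroup has a regular vector.  So either a given nontrivial element of the `2`-group is fixing no vector
of some orbit, or some element `w` with `w² ≠ 1` has this property along with `w²`.
-/

set_option autoImplicit false
set_option linter.unusedSectionVars false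
set_option linter.unusedVariables false
set_option linter.style.haveILetI false

namespace Cfsg.Agent.Lib.Vanish.Two

open Subgroup
open Cfsg.Agent.Lib.Vanish.Shift

section Act

variable {V : Type*} [AddCommGroup V] [Finite V]
variable {X : Type*} [Group X] [Finite X] [DistribMulAction X V]

/-- An abelian group acting faithfully and coprimely has a regular vector. -/
theorem exists_regular_vector (Y : Subgroup X) (hc : ∀ a ∈ Y, ∀ b ∈ Y, a * b = b * a)
    (hfaith : ∀ y ∈ Y, (∀ v : V, y • v = v) → y = 1) (hcop : (Nat.card V).Coprime (Nat.card Y)) :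
    ∃ v : V, ∀ y ∈ Y, y • v = v → y = 1 := by
  classical
  let stb : V → Subgroup X := fun v => Y ⊓ MulAction.stabilizer X v
  have hmemstb : ∀ v y, y ∈ stb v ↔ y ∈ Y ∧ y • v = v := by
    intro v y
    simp [stb, Subgroup.mem_inf, MulAction.mem_stabilizer_iff]
  obtain ⟨v, hv⟩ := Finite.exists_min (fun v : V => Nat.card (stb v))
  refine ⟨v, ?_⟩
  by_contra hcon
  push Not at hcon
  obtain ⟨d, hdY, hdv, hd1⟩ := hcon
  obtain ⟨u, hu⟩ : ∃ u : V, d • u ≠ u := by
    by_contra h
    push Not at h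
    exact hd1 (hfaith d hdY h)
  let S := stb v
  letI : Fintype S := Fintype.ofFinite S
  let m := Nat.card S
  have hmcop : (Nat.card V).Coprime m := by
    have hle : S ≤ Y := inf_le_left
    exact Nat.Coprime.coprime_dvd_right (Subgroup.card_dvd_of_le hle) hcop
  let π : V → V := fun a => ∑ e : S, (e : X) • a
  have hπadd : ∀ a b, π (a + b) = π a + π b := by
    intro a b
    simp only [π, smul_add, Finset.sum_add_distrib]
  have hπsub : ∀ a b, π (a - b) = π a - π b := by
    intro a b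
    simp only [π, smul_sub, Finset.sum_sub_distrib]
  have hπnsmul : ∀ (n : ℕ) a, π (n • a) = n • π a := by
    intro n a
    simp only [π, smul_comm _ n, Finset.smul_sum]
  have hπfix : ∀ a, (∀ e : S, (e : X) • a = a) → π a = m • a := by
    intro a ha
    simp only [π, ha, Finset.sum_const, Finset.card_univ]
    simp only [m, Nat.card_eq_fintype_card]
  have hπinv : ∀ (e₀ : S) a, (e₀ : X) • π a = π a := by
    intro e₀ a
    simp only [π, Finset.smul_sum, ← mul_smul]
    exact Fintype.sum_equiv (Equiv.mulLeft e₀) _ _ (fun e => rfl)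
  have hπcomm : ∀ y ∈ Y, ∀ a, π (y • a) = y • π a := by
    intro y hy a
    simp only [π, Finset.smul_sum, ← mul_smul]
    refine Finset.sum_congr rfl fun e _ => ?_
    have he : (e : X) ∈ Y := (mem_inf.mp e.2).1
    rw [hc _ he _ hy]
  have hSv : ∀ e : S, (e : X) • v = v := fun e => ((hmemstb v _).mp e.2).2
  let u' : V := m • u - π u
  have hπu' : π u' = 0 := by
    simp only [u']
    rw [hπsub, hπnsmul, hπfix (π u) (fun e => hπinv e u), sub_self]
  let w : V := v + u'
  have hπw : π w = m • v := by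
    simp only [w]
    rw [hπadd, hπu', add_zero, hπfix v hSv]
  have hle : stb w ≤ stb v := by
    intro y hy
    obtain ⟨hyY, hyw⟩ := (hmemstb w y).mp hy
    refine (hmemstb v y).mpr ⟨hyY, ?_⟩
    have h1 : y • (m • v) = m • v := by
      rw [← hπw, ← hπcomm y hyY, hyw]
    have h2 : m • (y • v - v) = 0 := by
      rw [nsmul_sub, ← smul_comm, h1, sub_self]
    exact sub_eq_zero.mp (nsmul_eq_zero_of_coprime hmcop h2)
  have hdS : d ∈ stb v := (hmemstb v d).mpr ⟨hdY, hdv⟩
  have hdw : d ∉ stb w := by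
    intro h
    obtain ⟨-, hfix⟩ := (hmemstb w d).mp h
    have h1 : d • u' = u' := by
      simp only [w, smul_add, hdv] at hfix
      exact add_left_cancel hfix
    have h2 : d • π u = π u := hπinv ⟨d, hdS⟩ u
    simp only [u', smul_sub, h2] at h1
    have h3 : d • (m • u) = m • u := by
      have := sub_left_inj.mp h1
      exact this
    have h4 : m • (d • u - u) = 0 := by
      rw [nsmul_sub, ← smul_comm, h3, sub_self]
    exact hu (sub_eq_zero.mp (nsmul_eq_zero_of_coprime hmcop h4))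
  have hlt : stb w < stb v := lt_of_le_of_ne hle (fun h => hdw (h ▸ hdS))
  have hcard : Nat.card (stb w) < Nat.card (stb v) := by
    have h1 : Nat.card (stb w) ∣ Nat.card (stb v) := Subgroup.card_dvd_of_le hle
    have h2 := Nat.le_of_dvd Nat.card_pos h1
    refine lt_of_le_of_ne h2 fun h => hdw ?_
    have h3 : (stb w : Set X) = stb v := by
      apply Set.eq_of_subset_of_ncard_le (fun x hx => hle hx)
      · have e1 : (stb v : Set X).ncard = Nat.card (stb v) := rfl
        have e2 : (stb w : Set X).ncard = Nat.card (stb w) := rfl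
        rw [e1, e2, h]
    exact (SetLike.ext'_iff.mpr h3) ▸ hdS
  exact absurd (hv w) (not_le.mpr hcard)

/-- The closure of the squares of a nontrivial `2`-group is proper. -/
theorem closure_squares_ne {Y : Subgroup X} (hY : IsPGroup 2 Y) (hY1 : Y ≠ ⊥) :
    closure {a | ∃ y ∈ Y, a = y ^ 2} ≠ Y := by
  classical
  haveI : Fact (Nat.Prime 2) := ⟨Nat.prime_two⟩
  haveI : Nontrivial Y := (Subgroup.nontrivial_iff_ne_bot Y).mpr hY1
  obtain ⟨M, hM⟩ : ∃ M : Subgroup Y, IsCoatom M := by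
    rcases eq_top_or_exists_le_coatom (⊥ : Subgroup Y) with h | ⟨M, hM, -⟩
    · exact (bot_ne_top h).elim
    · exact ⟨M, hM⟩
  have hidx : M.index = 2 := Cfsg.Agent.Lib.PGroups.Basic.index_eq_of_isCoatom hY hM
  intro h
  have hle : closure {a | ∃ y ∈ Y, a = y ^ 2} ≤ M.map Y.subtype := by
    rw [closure_le]
    rintro _ ⟨y, hy, rfl⟩
    have h1 := Subgroup.mul_self_mem_of_index_two (H := M) hidx ⟨y, hy⟩
    refine ⟨_, h1, ?_⟩
    simp [pow_two]
  rw [h] at hle
  apply hM.1
  rw [eq_top_iff]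
  intro y _
  obtain ⟨z, hz, hzy⟩ := hle y.2
  have : z = y := Subtype.ext hzy
  rwa [← this]

/-- The faithful case. -/
theorem two_faithful (hfaith : ∀ x : X, (∀ v : V, x • v = v) → x = 1) (hV : Odd (Nat.card V))
    {L : Subgroup X} (hLn : L.Normal) (hLp : IsPGroup 2 L) {x : X} (hx : x ∈ L) (hx1 : x ≠ 1) :
    (∃ v : V, ∀ g : X, (g * x * g⁻¹) • v ≠ v) ∨
      ∃ w ∈ L, w ^ 2 ≠ 1 ∧ ∃ v : V, ∀ g : X, (g * w * g⁻¹) • v ≠ v ∧ (g * w ^ 2 * g⁻¹) • v ≠ v := by
  classical
  have hcopY : ∀ Y : Subgroup X, Y ≤ L → (Nat.card V).Coprime (Nat.card Y) := by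
    intro Y hYL
    have h1 : IsPGroup 2 Y := hLp.to_le hYL
    obtain ⟨n, hn⟩ := IsPGroup.iff_card.mp h1
    rw [hn]
    exact Nat.Coprime.pow_right _ (Nat.coprime_two_right.mpr hV)
  by_cases hab : ∀ a ∈ L, ∀ b ∈ L, a * b = b * a
  · left
    obtain ⟨v, hv⟩ := exists_regular_vector L hab (fun y _ h => hfaith y h) (hcopY L le_rfl)
    refine ⟨v, fun g h => ?_⟩
    have h1 := hv _ (hLn.conj_mem x hx g) h
    apply hx1
    have h2 : x = g⁻¹ * (g * x * g⁻¹) * g := by group
    rw [h2, h1]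
    group
  · right
    -- a minimal nonabelian normal subgroup
    let S : Set (Subgroup X) := {Y | Y.Normal ∧ Y ≤ L ∧ ¬ ∀ a ∈ Y, ∀ b ∈ Y, a * b = b * a}
    have hwf : WellFoundedLT (Subgroup X) := inferInstance
    obtain ⟨Y, ⟨hYn, hYL, hYab⟩, hYmin⟩ := hwf.wf.has_min S ⟨L, hLn, le_rfl, hab⟩
    have hY1 : Y ≠ ⊥ := by
      rintro rfl
      apply hYab
      intro a ha b hb
      rw [mem_bot] at ha hb
      rw [ha, hb]
    have hYp : IsPGroup 2 Y := hLp.to_le hYL
    let Y₀ : Subgroup X := closure {a | ∃ y ∈ Y, a = y ^ 2}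
    have hY₀le : Y₀ ≤ Y := by
      rw [closure_le]
      rintro _ ⟨y, hy, rfl⟩
      exact pow_mem hy 2
    have hY₀ne : Y₀ ≠ Y := closure_squares_ne hYp hY1
    have hY₀n : Y₀.Normal := by
      constructor
      intro a ha g
      induction ha using closure_induction with
      | mem a h =>
        obtain ⟨y, hy, rfl⟩ := h
        apply Subgroup.subset_closure
        refine ⟨g * y * g⁻¹, hYn.conj_mem y hy g, ?_⟩
        rw [conj_pow]
      | one => simp
      | mul a b _ _ ha hb =>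
        have : g * (a * b) * g⁻¹ = (g * a * g⁻¹) * (g * b * g⁻¹) := by group
        rw [this]
        exact mul_mem ha hb
      | inv a _ ha =>
        have : g * a⁻¹ * g⁻¹ = (g * a * g⁻¹)⁻¹ := by group
        rw [this]
        exact inv_mem ha
    have hY₀ab : ∀ a ∈ Y₀, ∀ b ∈ Y₀, a * b = b * a := by
      by_contra hcon
      exact hYmin Y₀ ⟨hY₀n, hY₀le.trans hYL, hcon⟩ (lt_of_le_of_ne hY₀le hY₀ne)
    obtain ⟨v, hv⟩ := exists_regular_vector Y₀ hY₀ab (fun y _ h => hfaith y h)
      (hcopY Y₀ (hY₀le.trans hYL))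
    -- an element of `Y` with nontrivial square
    obtain ⟨w, hwY, hw⟩ : ∃ w ∈ Y, w ^ 2 ≠ 1 := by
      by_contra hcon
      push Not at hcon
      apply hYab
      intro a ha b hb
      have h1 := hcon a ha
      have h2 := hcon b hb
      have h3 := hcon _ (Y.mul_mem ha hb)
      have h4 : a⁻¹ = a := inv_eq_of_mul_eq_one_left (by rwa [pow_two] at h1)
      have h5 : b⁻¹ = b := inv_eq_of_mul_eq_one_left (by rwa [pow_two] at h2)
      have h6 : (a * b)⁻¹ = a * b := inv_eq_of_mul_eq_one_left (by rwa [pow_two] at h3)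
      rw [mul_inv_rev, h4, h5] at h6
      exact h6.symm
    refine ⟨w, hYL hwY, hw, v, fun g => ⟨fun h => ?_, fun h => ?_⟩⟩
    · have hs : g * w * g⁻¹ ∈ Y := hYn.conj_mem w hwY g
      have h1 : (g * w * g⁻¹) ^ 2 ∈ Y₀ := Subgroup.subset_closure ⟨_, hs, rfl⟩
      have h2 : ((g * w * g⁻¹) ^ 2) • v = v := by
        rw [pow_two, mul_smul, h, h]
      have h3 := hv _ h1 h2
      apply hw
      have h4 : (g * w * g⁻¹) ^ 2 = g * w ^ 2 * g⁻¹ := conj_pow
      rw [h4] at h3
      have h5 : w ^ 2 = g⁻¹ * (g * w ^ 2 * g⁻¹) * g := by group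
      rw [h5, h3]
      group
    · have h1 : w ^ 2 ∈ Y₀ := Subgroup.subset_closure ⟨w, hwY, rfl⟩
      have h2 : g * w ^ 2 * g⁻¹ ∈ Y₀ := hY₀n.conj_mem _ h1 g
      have h3 := hv _ h2 h
      apply hw
      have h5 : w ^ 2 = g⁻¹ * (g * w ^ 2 * g⁻¹) * g := by group
      rw [h5, h3]
      group

/-- The general case. -/
theorem two_general (hV : Odd (Nat.card V)) {L : Subgroup X} (hLn : L.Normal)
    (hL : ∀ y ∈ L, ∃ k : ℕ, ∀ v : V, y ^ (2 ^ k) • v = v) {x : X} (hx : x ∈ L)
    (hx1 : ∃ v : V, x • v ≠ v) :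
    (∃ v : V, ∀ g : X, (g * x * g⁻¹) • v ≠ v) ∨
      ∃ w ∈ L, (∃ v : V, w ^ 2 • v ≠ v) ∧
        ∃ v : V, ∀ g : X, (g * w * g⁻¹) • v ≠ v ∧ (g * w ^ 2 * g⁻¹) • v ≠ v := by
  classical
  let ρ : X →* Equiv.Perm V := MulAction.toPermHom X V
  let Xb : Subgroup (Equiv.Perm V) := ρ.range
  letI inst : DistribMulAction Xb V :=
    { (inferInstance : MulAction Xb V) with
      smul_zero := by
        rintro ⟨_, g, rfl⟩
        exact smul_zero g
      smul_add := by
        rintro ⟨_, g, rfl⟩ x y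
        exact smul_add g x y }
  let ρ' : X →* Xb := ρ.rangeRestrict
  have hsm : ∀ (g : X) (v : V), (ρ' g) • v = g • v := fun _ _ => rfl
  have hsurj : Function.Surjective ρ' := ρ.rangeRestrict_surjective
  let Pb : Subgroup Xb := L.map ρ'
  have hPbn : Pb.Normal := hLn.map ρ' hsurj
  have hPbp : IsPGroup 2 Pb := by
    rintro ⟨_, y, hy, rfl⟩
    obtain ⟨k, hk⟩ := hL y hy
    refine ⟨k, ?_⟩
    apply Subtype.ext
    apply Subtype.ext
    ext v
    change ((ρ' y) ^ 2 ^ k) • v = v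
    rw [← map_pow, hsm, hk]
  have hfaith : ∀ x : Xb, (∀ v : V, x • v = v) → x = 1 := by
    intro x hx
    apply Subtype.ext
    ext v
    exact hx v
  have ha1 : ρ' x ≠ 1 := by
    intro h
    obtain ⟨v₀, hv₀⟩ := hx1
    apply hv₀
    rw [← hsm, h, one_smul]
  rcases two_faithful hfaith hV hPbn hPbp (x := ρ' x) ⟨x, hx, rfl⟩ ha1 with ⟨v, hv⟩ | ⟨wb, ⟨w, hwL, rfl⟩, hw2, v, hv⟩
  · left
    refine ⟨v, fun g => ?_⟩
    have := hv (ρ' g)
    rw [← map_inv, ← map_mul, ← map_mul, hsm] at this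
    exact this
  · right
    refine ⟨w, hwL, ?_, v, fun g => ?_⟩
    · by_contra hcon
      push Not at hcon
      apply hw2
      apply hfaith
      intro v'
      rw [← map_pow, hsm]
      exact hcon v'
    · obtain ⟨h1, h2⟩ := hv (ρ' g)
      rw [← map_inv, ← map_mul, ← map_mul, hsm] at h1
      rw [← map_inv, ← map_pow, ← map_mul, ← map_mul, hsm] at h2
      exact ⟨h1, h2⟩

end Act

section Main

open Cfsg Cfsg.Agent.Lib.Vanish.Fix Cfsg.Agent.Lib.Solvable.Basic Cfsg.Agent.Lib.Core.Basic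

universe u

/-- No `2`-element `w` with `w² ≠ 1` is a zero of irreducible characters along with `w²`. -/
def NS (G : Type u) [Group G] : Prop :=
  ∀ w : G, (∃ k : ℕ, w ^ 2 ^ k = 1) → w ^ 2 ≠ 1 → (∃ χ : IrrCharacter G, (χ : G → ℂ) w = 0) →
    (∃ χ : IrrCharacter G, (χ : G → ℂ) (w ^ 2) = 0) → False

/-- The exponent producing the `2`-part of an element. -/
theorem exists_two_part {G : Type*} [Group G] [Finite G] (w : G) (k : ℕ) :
    ∃ m : ℕ, m % 2 ^ (k + 1) = 1 ∧ ∃ j : ℕ, (w ^ m) ^ 2 ^ j = 1 := by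
  obtain ⟨a, c, hc, hac⟩ := Nat.exists_eq_two_pow_mul_odd (orderOf_pos w).ne'
  have hcop : Nat.Coprime c (2 ^ (k + 1)) := Nat.Coprime.pow_right _ (Nat.coprime_two_right.mpr hc)
  have h1 : 1 < 2 ^ (k + 1) := Nat.one_lt_two_pow (by omega)
  obtain ⟨c', -, hc'⟩ := Nat.exists_mul_mod_eq_one_of_coprime hcop h1
  refine ⟨c * c', hc', a, ?_⟩
  rw [← pow_mul]
  have h2 : c * c' * 2 ^ a = orderOf w * c' := by
    rw [hac]
    ring
  rw [h2, pow_mul, pow_orderOf_eq_one, one_pow]

theorem NS.map {G H : Type u} [Group G] [Group H] [Finite G] (h : NS G) (f : G →* H)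
    (hf : Function.Surjective f) : NS H := by
  rintro wb ⟨k, hk⟩ hw2 ⟨χ₁, h1⟩ ⟨χ₂, h2⟩
  obtain ⟨w₀, rfl⟩ := hf wb
  obtain ⟨m, hm, j, hj⟩ := exists_two_part w₀ k
  have hk' : (f w₀) ^ 2 ^ (k + 1) = 1 := by
    rw [pow_succ, pow_mul, hk, one_pow]
  have hfm : f (w₀ ^ m) = f w₀ := by
    rw [map_pow, pow_eq_pow_mod m hk', hm, pow_one]
  refine h (w₀ ^ m) ⟨j, hj⟩ ?_ ⟨⟨(χ₁ : H → ℂ) ∘ f, Cfsg.Agent.Lib.Char.Linear.isIrrCharacter_comp f hf χ₁.2⟩, ?_⟩
    ⟨⟨(χ₂ : H → ℂ) ∘ f, Cfsg.Agent.Lib.Char.Linear.isIrrCharacter_comp f hf χ₂.2⟩, ?_⟩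
  · intro h3
    apply hw2
    rw [← hfm, ← map_pow, h3, map_one]
  · change (χ₁ : H → ℂ) (f (w₀ ^ m)) = 0
    rw [hfm]
    exact h1
  · change (χ₂ : H → ℂ) (f ((w₀ ^ m) ^ 2)) = 0
    rw [map_pow, hfm]
    exact h2

/-- An element moving a character under all conjugations does not have the fixing property. -/
theorem not_fx_of_moves {G : Type u} [Group G] {M : Subgroup G} (hMn : M.Normal) {x : G}
    {v : Additive (M →* ℂˣ)}
    (hv : letI := dualAct hMn; ∀ g : G, (g * x * g⁻¹) • v ≠ v) [Finite G] : ¬ Fx x := by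
  intro hfx
  letI act : DistribMulAction G (Additive (M →* ℂˣ)) := dualAct hMn
  obtain ⟨q, hq⟩ := hfx G (MonoidHom.id G) Function.surjective_id M hMn v.toMul
  apply hv q
  have hc : q * x * q⁻¹ ∈ stabL hMn v.toMul := hq
  have hc' := (stabL hMn v.toMul).inv_mem hc
  apply Additive.toMul.injective
  ext a
  change (v.toMul ⟨(q * x * q⁻¹)⁻¹ * a * (q * x * q⁻¹)⁻¹⁻¹, _⟩ : ℂ) = _
  have := hc' a
  rw [this]

/-- **Main theorem for the prime `2`.** -/
theorem mem_pCore_two : ∀ (n : ℕ) (G : Type u) [Group G] [Finite G],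
    Nat.card G = n → Group.IsSolvable G → NS G → ∀ x : G, (∃ k : ℕ, x ^ (2 ^ k) = 1) → Fx x →
      x ∈ pCore 2 G := by
  intro n
  induction n using Nat.strong_induction_on with
  | _ n ih =>
  intro G _ _ hn hG hNS x hxp hfx
  classical
  haveI hpf : Fact (Nat.Prime 2) := ⟨Nat.prime_two⟩
  have hp : Nat.Prime 2 := Nat.prime_two
  rcases subsingleton_or_nontrivial G with hsub | hnt
  · rw [Subsingleton.elim x 1]
    exact one_mem _
  obtain ⟨M, hM⟩ := exists_isMinNormal (G := G)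
  have hMcomm := isMinNormal_comm hM
  obtain ⟨r, hr, hMr⟩ := isMinNormal_exponent hM
  obtain ⟨hMn, hM1, hmin⟩ := hM
  haveI := hMn
  let π : G →* G ⧸ M := QuotientGroup.mk' M
  have hπker : ∀ x, π x = 1 ↔ x ∈ M := fun x => QuotientGroup.eq_one_iff x
  have hπs : Function.Surjective π := QuotientGroup.mk'_surjective M
  have hlt : Nat.card (G ⧸ M) < n := by
    have h1 := M.card_mul_index
    have h2 : 1 < Nat.card M := Finite.one_lt_card_iff_nontrivial.mpr ((Subgroup.nontrivial_iff_ne_bot M).mpr hM1)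
    have h3 : 0 < M.index := Nat.pos_of_ne_zero Subgroup.index_ne_zero_of_finite
    rw [hn] at h1
    change M.index < n
    nlinarith
  obtain ⟨kx, hkx⟩ := hxp
  have hxbar : π x ∈ pCore 2 (G ⧸ M) :=
    ih _ hlt (G ⧸ M) rfl (Group.isSolvable_of_surjective hπs) (hNS.map π hπs) (π x)
      ⟨kx, by rw [← map_pow, hkx, map_one]⟩ (hfx.map π hπs)
  let L : Subgroup G := (pCore 2 (G ⧸ M)).comap π
  have hLn : L.Normal := (pCore_normal 2 (G ⧸ M)).comap π
  have hxL : x ∈ L := hxbar
  have hLpow : ∀ y ∈ L, ∃ k : ℕ, y ^ (2 ^ k) ∈ M := by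
    intro y hy
    have h1 : IsPGroup 2 (pCore 2 (G ⧸ M)) := pCore_isPGroup
    obtain ⟨k, hk⟩ := h1 ⟨π y, hy⟩
    refine ⟨k, ?_⟩
    rw [← hπker, map_pow]
    exact congrArg Subtype.val hk
  by_cases hrp : r = 2
  · subst hrp
    have hLp : IsPGroup 2 L := by
      rintro ⟨y, hy⟩
      obtain ⟨k, hk⟩ := hLpow y hy
      refine ⟨k + 1, ?_⟩
      apply Subtype.ext
      have := hMr _ hk
      rw [← pow_mul, ← pow_succ] at this
      simpa using this
    exact (le_pCore hLn hLp) hxL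
  by_cases hAC : ∀ m ∈ M, x * m = m * x
  · -- `x` centralizes `M`
    let C : Subgroup G := centralizer (M : Set G)
    have hCn : C.Normal := Subgroup.normal_centralizer
    let D : Subgroup G := L ⊓ C
    have hDn : D.Normal := Subgroup.normal_inf_normal L C
    have hxD : x ∈ D := by
      refine mem_inf.mpr ⟨hxL, ?_⟩
      rw [mem_centralizer_iff]
      intro m hm
      exact (hAC m hm).symm
    let f : D →* pCore 2 (G ⧸ M) := (π.comp D.subtype).codRestrict _ (fun x => (mem_inf.mp x.2).1)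
    have hker : f.ker ≤ center D := by
      intro x hx
      have h1 : π x = 1 := congrArg Subtype.val (MonoidHom.mem_ker.mp hx)
      have h2 : (x : G) ∈ M := (hπker x).mp h1
      rw [mem_center_iff]
      intro y
      apply Subtype.ext
      have h3 := (mem_inf.mp y.2).2
      exact (mem_centralizer_iff.mp h3 _ h2).symm
    have hPnil : Group.IsNilpotent (pCore 2 (G ⧸ M)) := (pCore_isPGroup (p := 2)).isNilpotent
    have hDnil : Group.IsNilpotent D := Subgroup.isNilpotent_of_ker_le_center f hker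
    have hA' : IsPGroup 2 (zpowers (⟨x, hxD⟩ : D)) := by
      rw [IsPGroup.iff_card, Nat.card_zpowers]
      have h1 : orderOf (⟨x, hxD⟩ : D) ∣ 2 ^ kx :=
        orderOf_dvd_of_pow_eq_one (Subtype.ext (by simpa using hkx))
      obtain ⟨j, -, hj⟩ := (Nat.dvd_prime_pow hp).mp h1
      exact ⟨j, hj⟩
    obtain ⟨Q, hQ⟩ := hA'.exists_le_sylow
    have htf := (Group.isNilpotent_of_finite_tfae (G := D)).out 0 3
    have hQn : (Q : Subgroup D).Normal := htf.mp hDnil 2 inferInstance Q
    have hQle : (Q : Subgroup D) ≤ pCore 2 D := le_pCore hQn Q.isPGroup'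
    have hmap := map_pCore_le_of_isSubnormal (p := 2) (K := D) hDn.isSubnormal
    exact hmap ⟨⟨x, hxD⟩, hQle (hQ (mem_zpowers _)), rfl⟩
  · push Not at hAC
    obtain ⟨m, hm, hxm⟩ := hAC
    exfalso
    letI commM : CommGroup M :=
      { (inferInstance : Group M) with mul_comm := fun a b => Subtype.ext (hMcomm a a.2 b b.2) }
    letI act : DistribMulAction G (Additive (M →* ℂˣ)) := dualAct hMn
    have hact : ∀ (g : G) (v : Additive (M →* ℂˣ)) (a : M),
        (g • v).toMul a = v.toMul ⟨g⁻¹ * a * g⁻¹⁻¹, hMn.conj_mem _ a.2 _⟩ := fun _ _ _ => rfl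
    haveI : Finite (Additive (M →* ℂˣ)) := Finite.of_equiv _ Additive.ofMul
    have hMtriv : ∀ c ∈ M, ∀ v : Additive (M →* ℂˣ), c • v = v := by
      intro c hc v
      apply Additive.toMul.injective
      ext a
      rw [hact]
      have h1 : (⟨c⁻¹ * a * c⁻¹⁻¹, hMn.conj_mem _ a.2 _⟩ : M) = a := by
        apply Subtype.ext
        change c⁻¹ * a * c⁻¹⁻¹ = a
        have := hMcomm _ (M.inv_mem hc) _ a.2
        rw [this]
        group
      rw [h1]
    have hexp : ∀ v : Additive (M →* ℂˣ), r • v = 0 := by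
      intro v
      apply Additive.toMul.injective
      ext a
      change (((v.toMul ^ r) a : ℂˣ) : ℂ) = 1
      rw [MonoidHom.pow_apply, ← map_pow]
      have : a ^ r = 1 := Subtype.ext (by simpa using hMr a a.2)
      rw [this, map_one]
      rfl
    have hVodd : Odd (Nat.card (Additive (M →* ℂˣ))) := by
      rw [← Nat.not_even_iff_odd, even_iff_two_dvd]
      intro hd
      obtain ⟨y, hy⟩ := exists_prime_addOrderOf_dvd_card' 2 hd
      have h3 := addOrderOf_dvd_of_nsmul_eq_zero (hexp y)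
      rw [hy] at h3
      exact hrp ((Nat.prime_dvd_prime_iff_eq hp hr).mp h3).symm
    have hLact : ∀ y ∈ L, ∃ k : ℕ, ∀ v : Additive (M →* ℂˣ), y ^ (2 ^ k) • v = v := by
      intro y hy
      obtain ⟨k, hk⟩ := hLpow y hy
      exact ⟨k, fun v => hMtriv _ hk _⟩
    have hmoved : ∃ v : Additive (M →* ℂˣ), x • v ≠ v := by
      set a : G := x⁻¹ * m * x with ha
      have haM : a ∈ M := by
        have := hMn.conj_mem m hm x⁻¹
        simpa [ha] using this
      set t : G := a * m⁻¹ with ht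
      have htM : t ∈ M := M.mul_mem haM (M.inv_mem hm)
      have ht1 : (⟨t, htM⟩ : M) ≠ 1 := by
        intro h
        have h0 : t = 1 := congrArg Subtype.val h
        have h1 : a = m := by
          rw [ht] at h0
          exact mul_inv_eq_one.mp h0
        apply hxm
        rw [ha] at h1
        calc x * m = x * (x⁻¹ * m * x) := by rw [h1]
          _ = m * x := by group
      obtain ⟨φ, hφ⟩ := CommGroup.exists_apply_ne_one_of_hasEnoughRootsOfUnity M ℂ ht1
      refine ⟨Additive.ofMul φ, fun h => hφ ?_⟩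
      have h2 : (x • Additive.ofMul φ).toMul ⟨m, hm⟩ = φ ⟨m, hm⟩ := by rw [h]; rfl
      rw [hact] at h2
      have h3 : (⟨x⁻¹ * (⟨m, hm⟩ : M) * x⁻¹⁻¹, hMn.conj_mem _ hm _⟩ : M) = ⟨t, htM⟩ * ⟨m, hm⟩ := by
        apply Subtype.ext
        change x⁻¹ * m * x⁻¹⁻¹ = t * m
        rw [ht, ha]
        group
      rw [h3] at h2
      have h4 : φ (⟨t, htM⟩ * ⟨m, hm⟩) = φ ⟨t, htM⟩ * φ ⟨m, hm⟩ := map_mul φ _ _
      change φ (⟨t, htM⟩ * ⟨m, hm⟩) = φ ⟨m, hm⟩ at h2
      rw [h4] at h2
      exact mul_eq_right.mp h2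
    rcases two_general hVodd hLn hLact hxL hmoved with ⟨v, hv⟩ | ⟨w, hwL, ⟨v', hv'⟩, v, hv⟩
    · exact not_fx_of_moves hMn hv hfx
    · obtain ⟨kw, hkw⟩ := hLact w hwL
      obtain ⟨e, he, j, hj⟩ := exists_two_part w kw
      have hN : ∀ u : Additive (M →* ℂˣ), (w ^ 2 ^ (kw + 1)) • u = u := by
        intro u
        rw [pow_succ, pow_mul, pow_two, mul_smul, hkw, hkw]
      have hNq : ∀ (q : ℕ) (u : Additive (M →* ℂˣ)), ((w ^ 2 ^ (kw + 1)) ^ q) • u = u := by
        intro q
        induction q with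
        | zero => intro u; simp
        | succ q ih =>
          intro u
          rw [pow_succ, mul_smul, hN, ih]
      have hwe : ∀ u : Additive (M →* ℂˣ), (w ^ e) • u = w • u := by
        intro u
        have h1 : e = 2 ^ (kw + 1) * (e / 2 ^ (kw + 1)) + 1 := by
          have := Nat.div_add_mod e (2 ^ (kw + 1))
          omega
        have h2 : w ^ e = (w ^ 2 ^ (kw + 1)) ^ (e / 2 ^ (kw + 1)) * w := by
          conv_lhs => rw [h1]
          rw [pow_succ, pow_mul]
        rw [h2, mul_smul, hNq]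
      have hwe2 : ∀ u : Additive (M →* ℂˣ), ((w ^ e) ^ 2) • u = (w ^ 2) • u := by
        intro u
        rw [pow_two, mul_smul, hwe, hwe, pow_two, mul_smul]
      refine hNS (w ^ e) ⟨j, hj⟩ ?_ ?_ ?_
      · intro h0
        apply hv'
        rw [← hwe2, h0, one_smul]
      · by_contra hcon
        push Not at hcon
        refine not_fx_of_moves hMn (v := v) (fun g h => (hv g).1 ?_) (fx_of_nonvanishing hcon)
        rw [mul_smul, mul_smul] at h ⊢
        rwa [hwe] at h
      · by_contra hcon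
        push Not at hcon
        refine not_fx_of_moves hMn (v := v) (fun g h => (hv g).2 ?_) (fx_of_nonvanishing hcon)
        rw [mul_smul, mul_smul] at h ⊢
        rwa [hwe2] at h

end Main

end Cfsg.Agent.Lib.Vanish.Two
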