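import Mathlib
import Cfsg.Agent.Lib.Vanish.OneClass
import Cfsg.Agent.Lib.Vanish.Two
import Cfsg.Agent.Lib.Components.Primitive

/-!
# Solvable groups whose vanishing elements of order divisible by `p` have one order
-/

set_option autoImplicit false
set_option linter.unusedSectionVars false
set_option linter.unusedVariables false
set_option linter.style.haveILetI false

namespace Cfsg.Agent.Lib.Vanish.SameOrder

open Cfsg Subgroup
open Cfsg.Agent.Lib.Core.Basic
open Cfsg.Agent.Lib.Vanish.Fix Cfsg.Agent.Lib.Vanish.OneClass Cfsg.Agent.Lib.Vanish.Two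

universe u

/-- The hypothesis for the prime `2` gives `NS`. -/
theorem ns_of_sameOrder {G : Type u} [Group G] [Finite G]
    (Hv : ∀ z w : G, (∃ χ : IrrCharacter G, (χ : G → ℂ) z = 0) → 2 ∣ orderOf z →
      (∃ χ : IrrCharacter G, (χ : G → ℂ) w = 0) → 2 ∣ orderOf w → orderOf z = orderOf w) : NS G := by
  rintro w ⟨k, hk⟩ hw2 h1 h2
  haveI : Fact (Nat.Prime 2) := ⟨Nat.prime_two⟩
  have hd : ∀ t : G, (∃ j : ℕ, t ^ 2 ^ j = 1) → t ≠ 1 → 2 ∣ orderOf t := by
    rintro t ⟨j, hj⟩ ht1
    obtain ⟨i, -, hi⟩ := (Nat.dvd_prime_pow Nat.prime_two).mp (orderOf_dvd_of_pow_eq_one hj)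
    rw [hi]
    rcases Nat.eq_zero_or_pos i with rfl | hi0
    · rw [pow_zero, orderOf_eq_one_iff] at hi
      exact (ht1 hi).elim
    · exact dvd_pow_self 2 hi0.ne'
  have hw1 : w ≠ 1 := by
    rintro rfl
    exact hw2 (one_pow 2)
  have h3 := hd w ⟨k, hk⟩ hw1
  have h4 := hd (w ^ 2) ⟨k, by rw [← pow_mul, mul_comm, pow_mul, hk, one_pow]⟩ hw2
  have h5 := Hv w (w ^ 2) h1 h3 h2 h4
  rw [orderOf_pow_of_dvd two_ne_zero h3] at h5
  have hpos : 0 < orderOf w := orderOf_pos w
  have h6 := Nat.div_lt_self hpos one_lt_two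
  omega

/-- The image of a Sylow subgroup modulo `O_p(G)` has order at most `p`, for every prime `p`. -/
theorem card_map_le_all {G : Type u} [Group G] [Finite G] [hG : Group.IsSolvable G] {p : ℕ}
    [hpf : Fact p.Prime]
    (Hv : ∀ z w : G, (∃ χ : IrrCharacter G, (χ : G → ℂ) z = 0) → p ∣ orderOf z →
      (∃ χ : IrrCharacter G, (χ : G → ℂ) w = 0) → p ∣ orderOf w → orderOf z = orderOf w)
    (P : Sylow p G) :
    Nat.card ((P : Subgroup G).map (QuotientGroup.mk' (pCore p G))) ≤ p := by
  by_cases hp2 : p = 2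
  · subst hp2
    exact card_map_le_of_sameOrder'
      (fun x hx hfx => mem_pCore_two _ G rfl hG (ns_of_sameOrder Hv) x hx hfx) Hv P
  · exact card_map_le_of_sameOrder hp2 Hv P

/-- Cyclicity of the image and subnormality of the derived subgroup. -/
theorem conclusion_of_card_le {G : Type*} [Group G] [Finite G] {p : ℕ} [hpf : Fact p.Prime] (P : Sylow p G)
    (h : Nat.card ((P : Subgroup G).map (QuotientGroup.mk' (pCore p G))) ≤ p) :
    ((commutator ↥(P : Subgroup G)).map (P : Subgroup G).subtype).IsSubnormal ∧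
      IsCyclic ↥((P : Subgroup G).map (QuotientGroup.mk' (pCore p G))) := by
  classical
  have hp : p.Prime := hpf.out
  set Pb := (P : Subgroup G).map (QuotientGroup.mk' (pCore p G)) with hPb
  have hPbp : IsPGroup p Pb := (P.isPGroup').map _
  have hcyc : IsCyclic Pb := by
    obtain ⟨n, hn⟩ := IsPGroup.iff_card.mp hPbp
    rw [hn] at h
    have hn1 : n ≤ 1 := by
      by_contra hcon
      have h2 : p ^ 2 ≤ p ^ n := Nat.pow_le_pow_right hp.pos (by omega)
      have h3 := hp.two_le
      nlinarith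
    interval_cases n
    · rw [pow_zero] at hn
      haveI := (Nat.card_eq_one_iff_unique.mp hn).1
      infer_instance
    · rw [pow_one] at hn
      haveI : Fact (Nat.card Pb).Prime := ⟨by rw [hn]; exact hp⟩
      exact isCyclic_of_prime_card rfl
  refine ⟨?_, hcyc⟩
  -- the derived subgroup lies in `O_p(G)`
  have hab : ∀ a b : Pb, a * b = b * a := by
    haveI : IsMulCommutative Pb := IsCyclic.isMulCommutative
    exact fun a b => mul_comm' a b
  have hle : (commutator ↥(P : Subgroup G)).map (P : Subgroup G).subtype ≤ pCore p G := by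
    rw [Subgroup.map_le_iff_le_comap, commutator_def, Subgroup.commutator_le]
    intro a _ b _
    rw [Subgroup.mem_comap]
    have h1 : ((a : G) * (b : G) * (a : G)⁻¹ * (b : G)⁻¹) ∈ pCore p G := by
      rw [← QuotientGroup.eq_one_iff]
      have h2 := hab ⟨QuotientGroup.mk' (pCore p G) (a : G), (a : G), a.2, rfl⟩
        ⟨QuotientGroup.mk' (pCore p G) (b : G), (b : G), b.2, rfl⟩
      have h3 : (QuotientGroup.mk' (pCore p G) (a : G)) * (QuotientGroup.mk' (pCore p G) (b : G)) =
          (QuotientGroup.mk' (pCore p G) (b : G)) * (QuotientGroup.mk' (pCore p G) (a : G)) :=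
        congrArg Subtype.val h2
      change (QuotientGroup.mk' (pCore p G)) ((a : G) * (b : G) * (a : G)⁻¹ * (b : G)⁻¹) = 1
      rw [map_mul, map_mul, map_mul, map_inv, map_inv, h3]
      group
    simpa [commutatorElement_def] using h1
  haveI hnil : Group.IsNilpotent (pCore p G) := (pCore_isPGroup (p := p)).isNilpotent
  refine Subgroup.IsSubnormal.trans hle ?_ (pCore_normal p G).isSubnormal
  exact Cfsg.Agent.Lib.Components.Primitive.isSubnormal_of_isNilpotent _

end Cfsg.Agent.Lib.Vanish.SameOrder
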